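import Mathlib
import Cfsg.Agent.S4035
import Cfsg.Agent.Lib.Helper24.CS3.Basics
import Cfsg.Agent.Lib.Helper41.CS3.GoodDefs
import Cfsg.Agent.Lib.Helper67.SylowLemmas

/-!
# CS3 (S4284), part GOOD, package [G1]: `C(a) = Sa × N`.
-/

set_option autoImplicit false

namespace Cfsg.Agent.Lib.Helper43.CS3G1

open Cfsg.Agent.Lib.Helper81.CS3 Cfsg.Agent.Lib.Helper41.CS3
open scoped Pointwise

universe u

/-- if `D = A * B` with `A ⊓ B = ⊥` then `|D| = |A| |B|`. -/
theorem card_eq_mul_of_disjoint {G : Type u} [Group G] (A B D : Subgroup G)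
    (hAB : A ⊓ B = ⊥) (h1 : ∀ a ∈ A, ∀ b ∈ B, a * b ∈ D)
    (h2 : ∀ d ∈ D, ∃ a ∈ A, ∃ b ∈ B, d = a * b) :
    Nat.card D = Nat.card A * Nat.card B := by
  rw [← Nat.card_prod]
  symm
  apply Nat.card_congr
  refine Equiv.ofBijective (fun x : A × B => (⟨x.1 * x.2, h1 _ x.1.2 _ x.2.2⟩ : D)) ⟨?_, ?_⟩
  · rintro ⟨⟨a, ha⟩, ⟨b, hb⟩⟩ ⟨⟨a', ha'⟩, ⟨b', hb'⟩⟩ h
    simp only [Subtype.mk.injEq] at h
    have h3 : a'⁻¹ * a = b' * b⁻¹ := by
      rw [inv_mul_eq_iff_eq_mul, ← mul_assoc, ← h, mul_assoc, mul_inv_cancel, mul_one]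
    have h4 : a'⁻¹ * a ∈ A ⊓ B :=
      ⟨A.mul_mem (A.inv_mem ha') ha, by rw [h3]; exact B.mul_mem hb' (B.inv_mem hb)⟩
    rw [hAB, Subgroup.mem_bot] at h4
    have h5 : a = a' := by rw [inv_mul_eq_one] at h4; exact h4.symm
    subst h5
    have h6 : b = b' := mul_left_cancel h
    subst h6
    rfl
  · rintro ⟨d, hd⟩
    obtain ⟨a, ha, b, hb, rfl⟩ := h2 d hd
    exact ⟨(⟨a, ha⟩, ⟨b, hb⟩), rfl⟩

/-- the class size of `x` in a subgroup `H` is a relative index. -/
theorem ncard_class_subgroup {G : Type u} [Group G] (H : Subgroup G) (x : H) :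
    (ConjClasses.mk x).carrier.ncard =
      (Subgroup.centralizer ({(x : G)} : Set G)).relIndex H := by
  rw [Cfsg.Agent.Lib.Helper67.ncard_conjClasses_carrier, Subgroup.relIndex]
  congr 1
  ext g
  rw [Subgroup.mem_centralizer_singleton_iff, Subgroup.mem_subgroupOf,
    Subgroup.mem_centralizer_singleton_iff]
  constructor
  · intro h
    have := congrArg (Subtype.val) h
    simpa using this
  · intro h
    apply Subtype.ext
    simpa using h

theorem pkgG1 : PkgG1.{u} := by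
  intro G _ _ m n hyp s a hgood
  have hs := hgood.sp
  haveI : Fact s.Prime := ⟨hs⟩
  obtain ⟨k, hk⟩ := hgood.prim
  have hixa : (Subgroup.centralizer ({a} : Set G)).index = m := hgood.ixa
  have hcop : m.Coprime n := hyp.2.2.2.1
  have hsn : ¬ s ∣ n := by
    intro h
    have := Nat.dvd_gcd hgood.sm h
    rw [hcop.gcd_eq_one] at this
    exact hs.one_lt.ne' (Nat.dvd_one.mp this)
  -- key: relative index for elements of order prime to `s`
  have key : ∀ y : G, y ∈ Cn a → (orderOf y).Coprime s →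
      (Cn y).relIndex (Cn a) = 1 ∨ (Cn y).relIndex (Cn a) = n := by
    intro y hy hco
    have hc : Commute a y := by
      have := (Subgroup.mem_centralizer_singleton_iff).1 hy
      exact this.symm
    refine Cfsg.Agent.Lib.Helper24.CS3.relIndex_of_coprime hyp a y hixa hc ?_
    rw [hk]
    exact (Nat.Coprime.pow_left k hco.symm)
  have hS : ∀ x : Cn a, (orderOf x).Coprime s → ¬ s ∣ (ConjClasses.mk x).carrier.ncard := by
    intro x hx
    rw [ncard_class_subgroup]
    have hx' : (orderOf (x : G)).Coprime s := by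
      rwa [Subgroup.orderOf_coe]
    rcases key (x : G) x.2 hx' with h | h
    · rw [h]
      exact fun h1 => hs.one_lt.ne' (Nat.dvd_one.mp h1)
    · rw [h]
      exact hsn
  obtain ⟨P⟩ := (inferInstance : Nonempty (Sylow s (Cn a)))
  obtain ⟨hPn, K, hKn, hsK, hPK, hsup⟩ := Cfsg.Agent.S4035.result hS P
  obtain ⟨Sa, hSa⟩ : ∃ Sa : Subgroup G, Sa = (P : Subgroup (Cn a)).map (Cn a).subtype := ⟨_, rfl⟩
  obtain ⟨N, hN⟩ : ∃ N : Subgroup G, N = K.map (Cn a).subtype := ⟨_, rfl⟩
  have hSaH : Sa ≤ (Cn a) := by rw [hSa]; exact Subgroup.map_subtype_le _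
  have hNH : N ≤ (Cn a) := by rw [hN]; exact Subgroup.map_subtype_le _
  -- (F1)
  have F1 : ∀ x ∈ Sa, ∀ y ∈ N, x * y = y * x := by
    intro x hx y hy
    rw [hSa] at hx
    rw [hN] at hy
    obtain ⟨p, hp, rfl⟩ := hx
    obtain ⟨q, hq, rfl⟩ := hy
    have hd : Disjoint (P : Subgroup (Cn a)) K := disjoint_iff.2 hPK
    have := Subgroup.commute_of_normal_of_disjoint (P : Subgroup (Cn a)) K hPn hKn hd p q hp hq
    have h2 := congrArg (Subtype.val) this.eq
    simpa using h2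
  -- (F2)
  have F2 : Sa ⊓ N = ⊥ := by
    rw [hSa, hN, ← Subgroup.map_inf _ _ _ (Subgroup.subtype_injective (Cn a)), hPK, Subgroup.map_bot]
  -- (F3)
  have F3 : Sa ⊔ N = (Cn a) := by
    rw [hSa, hN, ← Subgroup.map_sup, hsup, ← MonoidHom.range_eq_map, Subgroup.range_subtype]
  -- (F4)
  have F4 : ∀ d ∈ (Cn a), ∃ x ∈ Sa, ∃ y ∈ N, d = x * y := by
    intro d hd
    have h1 : (⟨d, hd⟩ : (Cn a)) ∈ ((P : Subgroup (Cn a)) ⊔ K : Subgroup (Cn a)) := by
      rw [hsup]; exact Subgroup.mem_top _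
    have h2 : (⟨d, hd⟩ : (Cn a)) ∈ ((P : Subgroup (Cn a)) : Set (Cn a)) * (K : Set (Cn a)) := by
      rw [← Subgroup.mul_normal]
      exact h1
    obtain ⟨p, hp, q, hq, hpq⟩ := Set.mem_mul.1 h2
    refine ⟨(p : G), by rw [hSa]; exact ⟨p, hp, rfl⟩, (q : G), by rw [hN]; exact ⟨q, hq, rfl⟩, ?_⟩
    have := congrArg (Subtype.val) hpq
    simpa using this.symm
  have cardN : Nat.card N = Nat.card K := by
    rw [hN]
    exact Nat.card_congr (Subgroup.equivMapOfInjective K (Cn a).subtype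
      (Subgroup.subtype_injective (Cn a))).toEquiv.symm
  have hcopN : (Nat.card N).Coprime s := by
    rw [cardN]
    exact ((Nat.Prime.coprime_iff_not_dvd hs).2 hsK).symm
  have cardH : Nat.card (Cn a) = Nat.card Sa * Nat.card N :=
    card_eq_mul_of_disjoint Sa N (Cn a) F2 (fun x hx y hy => (Cn a).mul_mem (hSaH hx) (hNH hy)) F4
  refine ⟨Sa, N, ⟨F1, F3, ?_, hcopN, ?_⟩⟩
  · rw [hSa]
    exact P.isPGroup'.map (Cn a).subtype
  · intro y hy
    have hyH : y ∈ (Cn a) := hNH hy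
    have hyo : (orderOf y).Coprime s :=
      Nat.Coprime.coprime_dvd_left (Subgroup.orderOf_dvd_natCard N hy) hcopN
    have hr := key y hyH hyo
    -- |C ⊓ (Cn a)| = |Sa| |C ⊓ N|
    have cardC : Nat.card (Cn y ⊓ (Cn a) : Subgroup G) =
        Nat.card Sa * Nat.card (Cn y ⊓ N : Subgroup G) := by
      apply card_eq_mul_of_disjoint
      · apply le_antisymm _ bot_le
        rw [← F2]
        exact inf_le_inf_left _ inf_le_right
      · intro x hx z hz
        refine ⟨?_, (Cn a).mul_mem (hSaH hx) (hNH hz.2)⟩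
        refine (Cn y).mul_mem ?_ hz.1
        rw [Subgroup.mem_centralizer_singleton_iff]
        exact F1 x hx y hy
      · intro d hd
        obtain ⟨x, hx, z, hz, hdz⟩ := F4 d hd.2
        refine ⟨x, hx, z, ⟨?_, hz⟩, hdz⟩
        have hxC : x ∈ Cn y := by
          rw [Subgroup.mem_centralizer_singleton_iff]
          exact F1 x hx y hy
        have : z = x⁻¹ * d := by rw [hdz, inv_mul_cancel_left]
        rw [this]
        exact (Cn y).mul_mem ((Cn y).inv_mem hxC) hd.1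
    have hrel : Nat.card (Cn y ⊓ (Cn a) : Subgroup G) * (Cn y).relIndex (Cn a) = Nat.card (Cn a) := by
      have := Subgroup.relIndex_mul_relIndex (⊥ : Subgroup G) (Cn y ⊓ (Cn a)) (Cn a) bot_le inf_le_right
      rwa [Subgroup.relIndex_bot_left, Subgroup.relIndex_bot_left, Subgroup.inf_relIndex_right]
        at this
    rw [cardC, cardH] at hrel
    have hSapos : 0 < Nat.card Sa := Nat.card_pos
    have h3 : Nat.card N = (Cn y).relIndex (Cn a) * Nat.card (Cn y ⊓ N : Subgroup G) := by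
      have : Nat.card Sa * (Nat.card (Cn y ⊓ N : Subgroup G) * (Cn y).relIndex (Cn a)) =
          Nat.card Sa * Nat.card N := by rw [← mul_assoc]; exact hrel
      have := Nat.eq_of_mul_eq_mul_left hSapos this
      rw [← this, mul_comm]
    rcases hr with h | h
    · left; rw [h3, h, one_mul]
    · right; rw [h3, h]

end Cfsg.Agent.Lib.Helper43.CS3G1
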